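import Cfsg.Agent.H141.Rg.Lin
import Mathlib

/-!
# S5714 [C1]: the orbit counting lemma (helper270)

`pairs_le`: if two pairs `(x, v)` with annihilator `g` and the same invariant are conjugate (as tuples
`v, x v, ..`), then the number of pairs is at most `|X|` times the number of values of the invariant.
-/

set_option autoImplicit false

namespace Cfsg.Agent.H270.Rg

open Cfsg.Agent.H141.Rg Polynomial Module

variable {K V : Type*} [Field K] [AddCommGroup V] [Module K V]

theorem Ann.self {y : V →ₗ[K] V} {v : V} {g : K[X]} (h : Ann y v g) : aeval y g v = 0 := (h g).2 dvd_rfl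

theorem Ann.eq_zero {y : V →ₗ[K] V} {v : V} {g : K[X]} (h : Ann y v g) (hg : g = 1) : v = 0 := by
  have h1 := Ann.self h
  rw [hg, map_one] at h1
  exact h1

/-- the tuple is linearly independent -/
theorem Ann.indep {y : V →ₗ[K] V} {v : V} {g : K[X]} (h : Ann y v g) :
    LinearIndependent K (fun i : Fin g.natDegree => (y ^ (i : ℕ)) v) := by
  classical
  rw [Fintype.linearIndependent_iff]
  intro c hc i
  set f : K[X] := ∑ j : Fin g.natDegree, C (c j) * X ^ (j : ℕ) with hf
  have h1 : aeval y f v = 0 := by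
    rw [hf, map_sum, LinearMap.sum_apply]
    rw [← hc]
    refine Finset.sum_congr rfl fun j _ => ?_
    rw [map_mul, aeval_C, map_pow, aeval_X, Module.End.mul_apply, Module.algebraMap_end_apply]
  have h2 := (h f).1 h1
  have hdeg : f.degree < g.natDegree := by
    rw [hf]
    refine (degree_sum_le _ _).trans_lt ?_
    rw [Finset.sup_lt_iff (WithBot.bot_lt_coe _)]
    intro j _
    refine (degree_C_mul_X_pow_le _ _).trans_lt ?_
    exact_mod_cast j.2
  have h3 : f = 0 := by
    by_contra h0
    have := natDegree_le_of_dvd h2 h0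
    have h4 : f.natDegree < g.natDegree := by
      rw [natDegree_lt_iff_degree_lt h0]
      exact hdeg
    omega
  have h4 : f.coeff (i : ℕ) = c i := by
    rw [hf, finsetSum_coeff]
    rw [Finset.sum_eq_single i]
    · rw [coeff_C_mul, coeff_X_pow, if_pos rfl, mul_one]
    · intro j _ hj
      rw [coeff_C_mul, coeff_X_pow, if_neg (fun h => hj (Fin.ext h.symm)), mul_zero]
    · intro hi
      exact absurd (Finset.mem_univ i) hi
  rw [← h4, h3, coeff_zero]

/-- the next tuple -/
noncomputable def nxt (g : K[X]) (t : Fin g.natDegree → V) (i : Fin g.natDegree) : V :=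
  if h : (i : ℕ) + 1 < g.natDegree then t ⟨(i : ℕ) + 1, h⟩ else - ∑ j : Fin g.natDegree, g.coeff (j : ℕ) • t j

theorem Ann.next {y : V →ₗ[K] V} {v : V} {g : K[X]} (hg : g.Monic) (h : Ann y v g) (i : Fin g.natDegree) :
    y ((y ^ (i : ℕ)) v) = nxt g (fun i : Fin g.natDegree => (y ^ (i : ℕ)) v) i := by
  rw [nxt]
  have h0 : y ((y ^ (i : ℕ)) v) = (y ^ ((i : ℕ) + 1)) v := by
    rw [pow_succ', Module.End.mul_apply]
  split_ifs with hi
  · exact h0
  · have hi' : (i : ℕ) + 1 = g.natDegree := by
      have := i.2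
      omega
    rw [h0, hi', eq_neg_iff_add_eq_zero]
    have h1 := Ann.self h
    rw [aeval_eq_sum_range, LinearMap.sum_apply, Finset.sum_range_succ, hg.coeff_natDegree, one_smul] at h1
    rw [← h1, add_comm, Finset.sum_range (fun j => (g.coeff j • y ^ j) v)]
    rfl

/-- **the orbit counting lemma** -/
theorem pairs_le {X : Type*} [Group X] [Finite X] (τ : X →* (V →ₗ[K] V)) {g : K[X]} (hg : g.Monic) {I : Type*} [Finite I]
    (inv : X × V → I)
    (hinv : ∀ p p' : X × V, Ann (τ p.1) p.2 g → Ann (τ p'.1) p'.2 g → inv p = inv p' →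
      ∃ y : X, ∀ i < g.natDegree, τ y ((τ p.1 ^ i) p.2) = (τ p'.1 ^ i) p'.2) :
    Nat.card {p : X × V // Ann (τ p.1) p.2 g} ≤ Nat.card X * Nat.card I := by
  classical
  set D := g.natDegree with hD
  let t : X × V → (Fin D → V) := fun p i => (τ p.1 ^ (i : ℕ)) p.2
  let base : I → (Fin D → V) := fun i =>
    if h : ∃ p : X × V, Ann (τ p.1) p.2 g ∧ inv p = i then t h.choose else 0
  let hh : I → (Fin D → V) → X := fun i s =>
    if h : ∃ y : X, ∀ j, τ y (base i j) = s j then h.choose else 1
  let cc : (Fin D → V) → X := fun s =>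
    if h : ∃ y : X, ∀ j, τ y (s j) = nxt g s j then h.choose else 1
  have hbase : ∀ p : X × V, Ann (τ p.1) p.2 g → ∀ j, τ (hh (inv p) (t p)) (base (inv p) j) = t p j := by
    intro p hp
    have h1 : ∃ p' : X × V, Ann (τ p'.1) p'.2 g ∧ inv p' = inv p := ⟨p, hp, rfl⟩
    have h2 : base (inv p) = t h1.choose := dif_pos h1
    have h3 : ∃ y : X, ∀ j, τ y (base (inv p) j) = t p j := by
      obtain ⟨y, hy⟩ := hinv h1.choose p h1.choose_spec.1 hp h1.choose_spec.2
      refine ⟨y, fun j => ?_⟩
      rw [h2]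
      exact hy j j.2
    intro j
    have h4 : hh (inv p) (t p) = h3.choose := dif_pos h3
    rw [h4]
    exact h3.choose_spec j
  have hcc : ∀ p : X × V, Ann (τ p.1) p.2 g → ∀ j, τ (cc (t p)) (t p j) = nxt g (t p) j := by
    intro p hp
    have h3 : ∃ y : X, ∀ j, τ y (t p j) = nxt g (t p) j := ⟨p.1, fun j => Ann.next hg hp j⟩
    intro j
    have h4 : cc (t p) = h3.choose := dif_pos h3
    rw [h4]
    exact h3.choose_spec j
  let e : {p : X × V // Ann (τ p.1) p.2 g} → X × I := fun p =>
    ((cc (t p.1))⁻¹ * p.1.1 * hh (inv p.1) (t p.1), inv p.1)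
  have hτ : ∀ (x : X) (v : V), τ x⁻¹ (τ x v) = v := by
    intro x v
    rw [← Module.End.mul_apply, ← map_mul, inv_mul_cancel, map_one, Module.End.one_apply]
  have hkey : ∀ p : {p : X × V // Ann (τ p.1) p.2 g}, ∀ j, τ (e p).1 (base (e p).2 j) = t p.1 j := by
    intro p j
    change τ ((cc (t p.1))⁻¹ * p.1.1 * hh (inv p.1) (t p.1)) (base (inv p.1) j) = t p.1 j
    rw [map_mul, map_mul, Module.End.mul_apply, Module.End.mul_apply, hbase p.1 p.2]
    have h1 : τ p.1.1 (t p.1 j) = nxt g (t p.1) j := Ann.next hg p.2 j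
    rw [h1, ← hcc p.1 p.2, hτ]
  have hinj : Function.Injective e := by
    intro p p' hpp
    have h1 : t p.1 = t p'.1 := by
      funext j
      rw [← hkey p j, ← hkey p' j, hpp]
    have h2 : inv p.1 = inv p'.1 := congrArg Prod.snd hpp
    have h3 : (cc (t p.1))⁻¹ * p.1.1 * hh (inv p.1) (t p.1) = (cc (t p'.1))⁻¹ * p'.1.1 * hh (inv p'.1) (t p'.1) :=
      congrArg Prod.fst hpp
    rw [h1, h2] at h3
    have h4 : p.1.1 = p'.1.1 := mul_left_cancel (mul_right_cancel h3)
    have h5 : p.1.2 = p'.1.2 := by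
      rcases Nat.eq_zero_or_pos D with h0 | h0
      · have hg1 : g = 1 := by
          have h6 := eq_C_of_natDegree_eq_zero h0
          have h7 := hg.coeff_natDegree
          rw [← hD, h0] at h7
          rw [h6, h7, map_one]
        rw [Ann.eq_zero p.2 hg1, Ann.eq_zero p'.2 hg1]
      · have h6 := congrFun h1 ⟨0, h0⟩
        change (τ p.1.1 ^ 0) p.1.2 = (τ p'.1.1 ^ 0) p'.1.2 at h6
        rw [pow_zero, pow_zero] at h6
        exact h6
    exact Subtype.ext (Prod.ext h4 h5)
  have := Nat.card_le_card_of_injective e hinj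
  rwa [Nat.card_prod] at this

end Cfsg.Agent.H270.Rg
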