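import Cfsg.Agent.H270.Rg.Gl
import Mathlib

/-!
# S5714 [C1]: the bounds `el_gl`, `el_sl`, `el_sl2` (helper270)
-/

set_option autoImplicit false

namespace Cfsg.Agent.H270.Rg

open Cfsg.Agent.H141.Rg Polynomial Module

theorem one_le_sqrt_pow {q : ℕ} (hq : 1 ≤ q) (k : ℕ) : (1 : ℝ) ≤ Real.sqrt ((q : ℝ) ^ k) := by
  rw [Real.one_le_sqrt]
  exact one_le_pow₀ (by exact_mod_cast hq)

/-- `EL` from a bound without the square root -/
theorem el_of {K V : Type*} [Field K] [Finite K] [AddCommGroup V] [Module K V] {X : Type*} [Group X]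
    {σ : K →+* K} {τ : X →* (V →ₗ[K] V)} {s : K[X]} {c : ℕ → ℝ} (hc : ∀ D, 0 ≤ c D)
    (h : ∀ g : K[X], g.Monic →
      (Nat.card {p : X × V // Ann (τ p.1) p.2 g} : ℝ) ≤ c g.natDegree * Nat.card X) : EL σ τ s c := by
  intro g hg _ _
  refine (h g hg).trans ?_
  rw [mul_assoc]
  refine mul_le_mul_of_nonneg_left ?_ (hc _)
  exact le_mul_of_one_le_left (Nat.cast_nonneg _) (one_le_sqrt_pow Nat.card_pos _)

theorem el_gl (n : ℕ) (F : Type) [Field F] [Finite F] (σ : F →+* F) (s : F[X]) :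
    EL σ (glAct n F) s (fun _ => 1) := by
  refine el_of (fun _ => zero_le_one) fun g hg => ?_
  rw [one_mul]
  have h1 := pairs_le (glAct n F) hg (fun _ => ()) (fun p p' hp hp' _ => by
    obtain ⟨A, hA⟩ := exists_mat hp hp'
    refine ⟨A, fun i _ => ?_⟩
    rw [glAct_apply, ← cyc_X_pow, hA, cyc_X_pow])
  rw [show Nat.card Unit = 1 from Nat.card_unique, mul_one] at h1
  exact_mod_cast h1

/-- pairs of degree less than `n` are conjugate under `SL_n` -/
theorem exists_sl {n : ℕ} {F : Type} [Field F] {y y' : (Fin n → F) →ₗ[F] (Fin n → F)} {v v' : Fin n → F} {g : F[X]}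
    (hg : g.Monic) (hn : g.natDegree < n) (h : Ann y v g) (h' : Ann y' v' g) :
    ∃ A : Matrix.SpecialLinearGroup (Fin n) F, ∀ i : ℕ, slAct n F A ((y ^ i) v) = (y' ^ i) v' := by
  obtain ⟨A, hA⟩ := exists_mat h h'
  have hW : LinearMap.range (cyc y' v') ≠ ⊤ := by
    intro hW
    have h1 := Ann.range_finrank hg h'
    rw [hW, finrank_top, Module.finrank_fin_fun] at h1
    omega
  obtain ⟨B, hB, hBW⟩ := exists_det hW ((A : Matrix (Fin n) (Fin n) F).det)⁻¹
  have hA0 : (A : Matrix (Fin n) (Fin n) F).det ≠ 0 := by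
    have := (Matrix.isUnit_iff_isUnit_det (A : Matrix (Fin n) (Fin n) F)).1 A.isUnit
    exact this.ne_zero
  obtain ⟨S, hS⟩ : ∃ S : Matrix.SpecialLinearGroup (Fin n) F,
      (S : Matrix (Fin n) (Fin n) F) = B * (A : Matrix (Fin n) (Fin n) F) :=
    ⟨⟨B * (A : Matrix (Fin n) (Fin n) F), by rw [Matrix.det_mul, hB, inv_mul_cancel₀ hA0]⟩, rfl⟩
  refine ⟨S, fun i => ?_⟩
  rw [slAct_apply, hS, ← Matrix.mulVec_mulVec, ← cyc_X_pow, hA, hBW _ ⟨_, rfl⟩, cyc_X_pow]

/-- the matrix of the tuple -/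
def tupM {n : ℕ} {F : Type} [Field F] (y : (Fin n → F) →ₗ[F] (Fin n → F)) (v : Fin n → F) : Matrix (Fin n) (Fin n) F :=
  Matrix.of fun i j => (y ^ (j : ℕ)) v i

/-- pairs of degree `n` with the same determinant are conjugate under `SL_n` -/
theorem exists_sl' {n : ℕ} {F : Type} [Field F] {y y' : (Fin n → F) →ₗ[F] (Fin n → F)} {v v' : Fin n → F} {g : F[X]}
    (hn : g.natDegree = n) (h : Ann y v g) (h' : Ann y' v' g) (hdet : (tupM y v).det = (tupM y' v').det) :
    ∃ A : Matrix.SpecialLinearGroup (Fin n) F, ∀ i : ℕ, slAct n F A ((y ^ i) v) = (y' ^ i) v' := by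
  obtain ⟨A, hA⟩ := exists_mat h h'
  have hM : (A : Matrix (Fin n) (Fin n) F) * tupM y v = tupM y' v' := by
    ext i j
    have h1 := congrFun (hA (X ^ (j : ℕ))) i
    rw [cyc_X_pow, cyc_X_pow] at h1
    exact h1
  have hdet0 : (tupM y v).det ≠ 0 := by
    have h1 := Ann.indep h
    have h2 : LinearIndependent F (tupM y v).col := by
      have h3 : (tupM y v).col = (fun i : Fin g.natDegree => (y ^ (i : ℕ)) v) ∘ (finCongr hn.symm) := by
        funext j i
        rfl
      rw [h3]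
      exact h1.comp _ (finCongr hn.symm).injective
    rw [Matrix.linearIndependent_cols_iff_isUnit, Matrix.isUnit_iff_isUnit_det] at h2
    exact h2.ne_zero
  have hA1 : (A : Matrix (Fin n) (Fin n) F).det = 1 := by
    have h1 := congrArg Matrix.det hM
    rw [Matrix.det_mul, ← hdet] at h1
    exact mul_right_cancel₀ hdet0 (h1.trans (one_mul _).symm)
  obtain ⟨S, hS⟩ : ∃ S : Matrix.SpecialLinearGroup (Fin n) F,
      (S : Matrix (Fin n) (Fin n) F) = (A : Matrix (Fin n) (Fin n) F) := ⟨⟨_, hA1⟩, rfl⟩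
  refine ⟨S, fun i => ?_⟩
  rw [slAct_apply, hS, ← cyc_X_pow, hA, cyc_X_pow]

theorem pairs_sl_lt {n : ℕ} {F : Type} [Field F] [Finite F] {g : F[X]} (hg : g.Monic) (hn : g.natDegree < n) :
    Nat.card {p : Matrix.SpecialLinearGroup (Fin n) F × (Fin n → F) // Ann (slAct n F p.1) p.2 g} ≤
      Nat.card (Matrix.SpecialLinearGroup (Fin n) F) := by
  have h1 := pairs_le (slAct n F) hg (fun _ => ()) (fun p p' hp hp' _ => by
    obtain ⟨A, hA⟩ := exists_sl hg hn hp hp'
    exact ⟨A, fun i _ => hA i⟩)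
  rwa [show Nat.card Unit = 1 from Nat.card_unique, mul_one] at h1

theorem pairs_sl_ge {n : ℕ} {F : Type} [Field F] [Finite F] {g : F[X]} (hg : g.Monic) (hn : n ≤ g.natDegree) :
    Nat.card {p : Matrix.SpecialLinearGroup (Fin n) F × (Fin n → F) // Ann (slAct n F p.1) p.2 g} ≤
      Nat.card (Matrix.SpecialLinearGroup (Fin n) F) * Nat.card F := by
  refine pairs_le (slAct n F) hg (fun p => (tupM (slAct n F p.1) p.2).det) (fun p p' hp hp' hdet => ?_)
  have h1 := Ann.le hp
  rw [Module.finrank_fin_fun] at h1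
  obtain ⟨A, hA⟩ := exists_sl' (le_antisymm h1 hn) hp hp' hdet
  exact ⟨A, fun i _ => hA i⟩

theorem el_sl (n : ℕ) (F : Type) [Field F] [Finite F] (σ : F →+* F) (s : F[X]) :
    EL σ (slAct n F) s (fun D => if D < n then 1 else Nat.card F) := by
  refine el_of (fun D => ?_) fun g hg => ?_
  · split_ifs
    · exact zero_le_one
    · exact Nat.cast_nonneg _
  · split_ifs with h
    · rw [one_mul]
      exact_mod_cast pairs_sl_lt hg h
    · rw [mul_comm]
      exact_mod_cast pairs_sl_ge hg (not_lt.1 h)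

/-- `g` is the characteristic polynomial -/
theorem Ann.charpoly {n : ℕ} {F : Type} [Field F] {x : Matrix (Fin n) (Fin n) F} {v : Fin n → F} {g : F[X]}
    (hg : g.Monic) (hn : g.natDegree = n) (h : Ann (Matrix.toLin' x) v g) : g = x.charpoly := by
  have h1 : aeval (Matrix.toLin' x) x.charpoly v = 0 := by
    have h2 := LinearMap.aeval_self_charpoly (Matrix.toLin' x)
    rw [Matrix.charpoly_toLin'] at h2
    rw [h2, LinearMap.zero_apply]
  have h2 := (h _).1 h1
  refine (eq_of_monic_of_dvd_of_natDegree_le hg (Matrix.charpoly_monic x) h2 ?_).symm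
  rw [Matrix.charpoly_natDegree_eq_dim, Fintype.card_fin, hn]

theorem ed_of_self {F : Type} [Field F] {g : F[X]} (hg : g.Monic) (h : str (RingHom.id F) g = g) :
    g.natDegree ≤ ed (RingHom.id F) g := by
  classical
  unfold ed
  rw [h]
  refine natDegree_le_of_dvd (EuclideanDomain.dvd_gcd dvd_rfl dvd_rfl) ?_
  intro h0
  exact hg.ne_zero (EuclideanDomain.gcd_eq_zero_iff.1 h0).1

theorem str_of_two {F : Type} [Field F] {g : F[X]} (hg : g.Monic) (h2 : g.natDegree = 2) (h0 : g.coeff 0 = 1) :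
    str (RingHom.id F) g = g := by
  unfold str
  rw [Polynomial.map_id]
  ext i
  rw [coeff_reverse, h2]
  have hl : g.coeff 2 = 1 := by rw [← h2]; exact hg.coeff_natDegree
  rcases i with _ | _ | _ | i
  · rw [revAt_le (by norm_num), h0]
    exact hl
  · rw [revAt_le (by norm_num)]
  · rw [revAt_le (by norm_num), hl]
    exact h0
  · rw [revAt_eq_self_of_lt (by omega)]

theorem el_sl2 (F : Type) [Field F] [Finite F] : EL (RingHom.id F) (slAct 2 F) 1 (fun _ => 1) := by
  intro g hg _ _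
  have hq : (1 : ℝ) ≤ Nat.card F := by exact_mod_cast (Nat.card_pos (α := F))
  rw [one_mul]
  rcases Nat.lt_or_ge g.natDegree 2 with h | h
  · refine le_trans (by exact_mod_cast pairs_sl_lt hg h) (le_mul_of_one_le_left (Nat.cast_nonneg _) ?_)
    exact one_le_sqrt_pow Nat.card_pos _
  · rcases isEmpty_or_nonempty {p : Matrix.SpecialLinearGroup (Fin 2) F × (Fin 2 → F) // Ann (slAct 2 F p.1) p.2 g}
      with he | ⟨⟨p, hp⟩⟩
    · rw [Nat.card_of_isEmpty, Nat.cast_zero]
      positivity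
    · have h1 := Ann.le hp
      rw [Module.finrank_fin_fun] at h1
      have h2 : g.natDegree = 2 := le_antisymm h1 h
      have h3 : g = (p.1 : Matrix (Fin 2) (Fin 2) F).charpoly := Ann.charpoly hg h2 hp
      have h4 : g.coeff 0 = 1 := by
        have h5 := Matrix.det_eq_sign_charpoly_coeff (p.1 : Matrix (Fin 2) (Fin 2) F)
        rw [← h3, Fintype.card_fin, p.1.2] at h5
        rw [h5]
        ring
      have h5 := ed_of_self hg (str_of_two hg h2 h4)
      have h6 : (Nat.card F : ℝ) ≤ Real.sqrt ((Nat.card F : ℝ) ^ ed (RingHom.id F) g) := by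
        refine Real.le_sqrt_of_sq_le ?_
        exact pow_le_pow_right₀ hq (by omega)
      have h7 : (Nat.card {p : Matrix.SpecialLinearGroup (Fin 2) F × (Fin 2 → F) // Ann (slAct 2 F p.1) p.2 g} : ℝ) ≤
          Nat.card F * Nat.card (Matrix.SpecialLinearGroup (Fin 2) F) := by
        rw [mul_comm]
        exact_mod_cast pairs_sl_ge hg h
      exact h7.trans (mul_le_mul_of_nonneg_right h6 (Nat.cast_nonneg _))

end Cfsg.Agent.H270.Rg
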