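import Cfsg.Agent.H141.Rg.Act
import Cfsg.Agent.H270.Rg.Count
import Mathlib

/-!
# S5714 [C1]: pairs `(x, v)` with a given annihilator in `GL_n`, `SL_n` (helper270)
-/

set_option autoImplicit false

namespace Cfsg.Agent.H270.Rg

open Cfsg.Agent.H141.Rg Polynomial Module

variable {K V : Type*} [Field K] [AddCommGroup V] [Module K V]

/-- two linear maps with the same kernel differ by an automorphism of the target -/
theorem exists_aut {M : Type*} [FiniteDimensional K V] [AddCommGroup M]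
    [Module K M] (φ φ' : M →ₗ[K] V) (h : LinearMap.ker φ = LinearMap.ker φ') : ∃ g : V ≃ₗ[K] V, ∀ m, g (φ m) = φ' m := by
  let e0 : LinearMap.range φ ≃ₗ[K] LinearMap.range φ' :=
    φ.quotKerEquivRange.symm ≪≫ₗ (Submodule.quotEquivOfEq _ _ h) ≪≫ₗ φ'.quotKerEquivRange
  have he0 : ∀ m, (e0 ⟨φ m, ⟨m, rfl⟩⟩ : V) = φ' m := by
    intro m
    have h1 : φ.quotKerEquivRange.symm ⟨φ m, ⟨m, rfl⟩⟩ = (LinearMap.ker φ).mkQ m := by
      rw [LinearEquiv.symm_apply_eq]
      rfl
    show ((φ'.quotKerEquivRange ((Submodule.quotEquivOfEq _ _ h) (φ.quotKerEquivRange.symm ⟨φ m, ⟨m, rfl⟩⟩)) :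
      LinearMap.range φ') : V) = φ' m
    rw [h1]
    rfl
  obtain ⟨D, hD⟩ := Submodule.exists_isCompl (LinearMap.range φ)
  obtain ⟨D', hD'⟩ := Submodule.exists_isCompl (LinearMap.range φ')
  have hfr : Module.finrank K D = Module.finrank K D' := by
    have h1 := Submodule.finrank_add_eq_of_isCompl hD
    have h2 := Submodule.finrank_add_eq_of_isCompl hD'
    have h3 := e0.finrank_eq
    omega
  let e1 : D ≃ₗ[K] D' := LinearEquiv.ofFinrankEq D D' hfr
  refine ⟨(Submodule.prodEquivOfIsCompl _ _ hD).symm ≪≫ₗ (e0.prodCongr e1) ≪≫ₗ Submodule.prodEquivOfIsCompl _ _ hD', ?_⟩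
  intro m
  have h1 : (Submodule.prodEquivOfIsCompl _ _ hD).symm (φ m) = (⟨φ m, ⟨m, rfl⟩⟩, 0) :=
    Submodule.prodEquivOfIsCompl_symm_apply_left _ _ hD (⟨φ m, ⟨m, rfl⟩⟩ : LinearMap.range φ)
  show (Submodule.prodEquivOfIsCompl _ _ hD') ((e0.prodCongr e1) ((Submodule.prodEquivOfIsCompl _ _ hD).symm (φ m))) = φ' m
  rw [h1]
  simp [he0]

/-- the cyclic map of `v` -/
noncomputable def cyc (y : V →ₗ[K] V) (v : V) : K[X] →ₗ[K] V where
  toFun p := aeval y p v
  map_add' p q := by rw [map_add, LinearMap.add_apply]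
  map_smul' a p := by rw [map_smul, LinearMap.smul_apply, RingHom.id_apply]

theorem cyc_apply (y : V →ₗ[K] V) (v : V) (p : K[X]) : cyc y v p = aeval y p v := rfl

theorem cyc_X_pow (y : V →ₗ[K] V) (v : V) (i : ℕ) : cyc y v (X ^ i) = (y ^ i) v := by
  rw [cyc_apply, map_pow, aeval_X]

theorem Ann.ker {y y' : V →ₗ[K] V} {v v' : V} {g : K[X]} (h : Ann y v g) (h' : Ann y' v' g) :
    LinearMap.ker (cyc y v) = LinearMap.ker (cyc y' v') := by
  ext p
  rw [LinearMap.mem_ker, LinearMap.mem_ker]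
  exact (h p).trans (h' p).symm

/-- the degree is at most the dimension -/
theorem Ann.le [FiniteDimensional K V] {y : V →ₗ[K] V} {v : V} {g : K[X]} (h : Ann y v g) :
    g.natDegree ≤ finrank K V := by
  have := (Ann.indep h).fintype_card_le_finrank
  rwa [Fintype.card_fin] at this

/-- the range of the cyclic map is spanned by the tuple -/
theorem Ann.range_finrank [FiniteDimensional K V] {y : V →ₗ[K] V} {v : V} {g : K[X]} (hg : g.Monic) (h : Ann y v g) :
    finrank K (LinearMap.range (cyc y v)) = g.natDegree := by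
  have h1 : LinearMap.range (cyc y v) = Submodule.span K (Set.range fun i : Fin g.natDegree => (y ^ (i : ℕ)) v) := by
    apply le_antisymm
    · rintro _ ⟨p, rfl⟩
      rw [← modByMonic_add_div p g, map_add]
      have h2 : cyc y v (g * (p /ₘ g)) = 0 := by
        rw [cyc_apply]
        exact (h _).2 (Dvd.intro _ rfl)
      rw [h2, add_zero]
      rcases eq_or_ne g 1 with h1 | h1
      · rw [h1, modByMonic_one, map_zero]
        exact Submodule.zero_mem _
      rw [(p %ₘ g).as_sum_range' g.natDegree (natDegree_modByMonic_lt p hg h1), map_sum]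
      refine Submodule.sum_mem _ fun i hi => ?_
      rw [← C_mul_X_pow_eq_monomial, ← smul_eq_C_mul, map_smul, cyc_X_pow]
      exact Submodule.smul_mem _ _ (Submodule.subset_span ⟨⟨i, Finset.mem_range.1 hi⟩, rfl⟩)
    · rw [Submodule.span_le]
      rintro _ ⟨i, rfl⟩
      exact ⟨X ^ (i : ℕ), cyc_X_pow _ _ _⟩
  rw [h1, finrank_span_eq_card (Ann.indep h), Fintype.card_fin]

section mat

variable {n : ℕ} {F : Type} [Field F]

theorem glAct_apply (x : GL (Fin n) F) (v : Fin n → F) : glAct n F x v = (x : Matrix (Fin n) (Fin n) F).mulVec v :=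
  Matrix.toLin'_apply _ _

theorem slAct_apply (x : Matrix.SpecialLinearGroup (Fin n) F) (v : Fin n → F) :
    slAct n F x v = (x : Matrix (Fin n) (Fin n) F).mulVec v :=
  Matrix.toLin'_apply _ _

/-- pairs are conjugate under `GL_n` -/
theorem exists_mat {y y' : (Fin n → F) →ₗ[F] (Fin n → F)} {v v' : Fin n → F} {g : F[X]} (h : Ann y v g)
    (h' : Ann y' v' g) :
    ∃ A : GL (Fin n) F, ∀ f : F[X], (A : Matrix (Fin n) (Fin n) F).mulVec (cyc y v f) = cyc y' v' f := by
  obtain ⟨e, he⟩ := exists_aut (cyc y v) (cyc y' v') (Ann.ker h h')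
  refine ⟨⟨LinearMap.toMatrix' e.toLinearMap, LinearMap.toMatrix' e.symm.toLinearMap, ?_, ?_⟩, fun f => ?_⟩
  · rw [← LinearMap.toMatrix'_comp, LinearEquiv.comp_symm, LinearMap.toMatrix'_id]
  · rw [← LinearMap.toMatrix'_comp, LinearEquiv.symm_comp, LinearMap.toMatrix'_id]
  · change (LinearMap.toMatrix' e.toLinearMap).mulVec _ = _
    rw [LinearMap.toMatrix'_mulVec]
    exact he f

/-- adjusting the determinant -/
theorem exists_det {W : Submodule F (Fin n → F)} (hW : W ≠ ⊤) (c : F) :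
    ∃ B : Matrix (Fin n) (Fin n) F, B.det = c ∧ ∀ w ∈ W, B.mulVec w = w := by
  classical
  obtain ⟨f, hf, hWf⟩ := W.exists_le_ker_of_lt_top (lt_top_iff_ne_top.2 hW)
  obtain ⟨u, hu⟩ : ∃ u, f u = 1 := by
    obtain ⟨u, hu⟩ : ∃ u, f u ≠ 0 := by
      by_contra hcon
      push Not at hcon
      exact hf (LinearMap.ext hcon)
    exact ⟨(f u)⁻¹ • u, by rw [map_smul, smul_eq_mul, inv_mul_cancel₀ hu]⟩
  set l : Fin n → F := fun i => f (Pi.single i 1) with hl
  have hfl : ∀ v, f v = l ⬝ᵥ v := by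
    intro v
    conv_lhs => rw [← LinearMap.sum_single_apply (fun _ : Fin n => F) v]
    rw [map_sum, dotProduct]
    refine Finset.sum_congr rfl fun i _ => ?_
    have h1 : (Pi.single i (v i) : Fin n → F) = v i • Pi.single i (1 : F) := by
      rw [← Pi.single_smul, smul_eq_mul, mul_one]
    rw [hl]
    change f (Pi.single i (v i)) = _
    rw [h1, map_smul, smul_eq_mul, mul_comm]
  refine ⟨1 + Matrix.replicateCol Unit ((c - 1) • u) * Matrix.replicateRow Unit l, ?_, fun w hw => ?_⟩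
  · rw [Matrix.det_one_add_replicateCol_mul_replicateRow, dotProduct_smul, ← hfl, hu, smul_eq_mul]
    ring
  · have h1 : l ⬝ᵥ w = 0 := by
      rw [← hfl]
      exact hWf hw
    rw [Matrix.add_mulVec, Matrix.one_mulVec, ← Matrix.mulVec_mulVec]
    have h2 : (Matrix.replicateRow Unit l).mulVec w = 0 := by
      funext i
      exact h1
    rw [h2, Matrix.mulVec_zero, add_zero]

end mat

end Cfsg.Agent.H270.Rg
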